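import Cfsg.Agent.H141.Ux.Defs
import Cfsg.Agent.H262.Rx.Bridge
import Cfsg.Agent.H883.Root

/-!
# UX (S5716, unbounded rank): the exact statements of the tasks (helper141)

A task `Uxx` is done when a theorem `… : H141.Ux.Uxx` is proved. All spaces are in `Type`. Plan: `tools/plans/S5716_unb.md`.
-/

set_option autoImplicit false

namespace Cfsg.Agent.H141.Ux

open Module Cfsg.Agent.H847.Bs Cfsg.Agent.LieClassical.OrthCore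
open Cfsg.Agent.H440.Bs (perp mem_perp)
open Cfsg Subgroup

/-! ### Final results per family -/

/-- all but `ε |G|` elements `y ∈ G` generate `G` together with the non-scalar `x ∈ G` -/
def Xsl : Prop := ∀ ε : ℝ, 0 < ε → ∃ n₀ Q₀ : ℕ, ∀ (F V : Type) [Field F] [Finite F] [AddCommGroup V] [Module F V]
  [Module.Finite F V], n₀ ≤ finrank F V → Q₀ ≤ Nat.card F → ∀ x ∈ slV F V, ¬ Sca x →
  (cnt (slV F V) (fun y => closure {x, y} ≠ slV F V) : ℝ) ≤ ε * Nat.card (slV F V)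

/-- forms -/
def Xf : Prop := ∀ ε : ℝ, 0 < ε → ∃ n₀ Q₀ : ℕ, ∀ (F V : Type) [Field F] [Finite F] [AddCommGroup V] [Module F V]
  [Module.Finite F V] (Φ : Frm F V) (G : Subgroup (V ≃ₗ[F] V)) (N t : ℕ), Kl Φ G N t → n₀ ≤ finrank F V → Q₀ ≤ t →
  ∀ x ∈ G, ¬ Sca x → (cnt G (fun y => closure {x, y} ≠ G) : ℝ) ≤ ε * Nat.card G

/-- UA: transfer to the simple groups -/
def UA : Prop := Xsl → Xf → H262.Rx.UX H262.Rx.IsCl

/-! ### Reducible subgroups (helper262's `red_sl`, `red_su`, `red_om`, `red_sp`, translated) -/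

/-- UR1 -/
def UR1 : Prop := ∃ (C : ℝ) (n₀ : ℕ), ∀ (F V : Type) [Field F] [Finite F] [AddCommGroup V] [Module F V] [Module.Finite F V],
  n₀ ≤ finrank F V → 4 ≤ Nat.card F → ∀ x ∈ slV F V, ¬ Sca x →
  (cnt (slV F V) (fun y => ¬ IrrG (closure {x, y})) : ℝ) * Nat.card F ≤ C * Nat.card (slV F V)

/-- UR2 -/
def UR2 : Prop := ∃ (C : ℝ) (n₀ : ℕ), ∀ (F V : Type) [Field F] [Finite F] [AddCommGroup V] [Module F V] [Module.Finite F V]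
  (Φ : Frm F V) (G : Subgroup (V ≃ₗ[F] V)) (N t : ℕ), Kl Φ G N t → n₀ ≤ finrank F V → 4 ≤ t → ∀ x ∈ G, ¬ Sca x →
  (cnt G (fun y => ¬ IrrG (closure {x, y})) : ℝ) * t ≤ C * Nat.card G

/-! ### Index sets (numerics) -/

/-- the numerical conditions on the dimension `e` of a block (`p ^ f` elements in the field, `dim V = n`) -/
structure Num (η : ℝ) (n p f e : ℕ) : Prop where
  le : 40 * e + 40 ≤ n
  ge : 20 ≤ e
  nd : ¬ e ∣ n ∧ ¬ e ∣ (n - 1) / 2 ∧ ¬ e ∣ (n + 1) / 2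
  sum : ∑ j ∈ Finset.range n, 1 / (((j + 1) * e : ℕ) : ℝ) ≤ η
  small : (e : ℝ)⁻¹ ≤ η
  big : 16 * e * (2 * e + 2) ^ 2 ≤ (p ^ f) ^ e.totient
  bigp : 64 * (e * f) * (2 * e + 2) ^ 2 * e ≤ p ^ (e * f).totient

/-- UI: the index sets. `a = 1, b = 2` for `Sp`, `Ω`; `a = 2, b = 1` for `SL`, `SU`; `I` : dimensions of the blocks `A`,
`J` : dimensions of the blocks `E`. -/
def UI : Prop := ∀ (K η : ℝ) (a b : ℕ), 0 < η → 1 ≤ K → (a = 1 ∧ b = 2 ∨ a = 2 ∧ b = 1) → ∃ N₀ : ℕ, ∀ n p f : ℕ, N₀ ≤ n →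
  p.Prime → 1 ≤ f → ∃ I J : Finset ℕ,
    (∀ e ∈ I ∪ J, Num η n p f e) ∧
    (∀ e ∈ I, ∃ l, l.Prime ∧ Odd l ∧ e = a * l) ∧ (∀ e ∈ J, ∃ l, l.Prime ∧ Odd l ∧ e = b * l) ∧
    (∀ e ∈ J, ∀ d ∈ I, 4 * d < e ∧ Nat.Coprime e (if a = 1 then d else 2 * d)) ∧
    K ≤ ∑ e ∈ I, 1 / (e : ℝ) ∧ ∑ e ∈ I, 1 / (e : ℝ) ≤ K + 1 ∧ K ≤ ∑ e ∈ J, 1 / (e : ℝ) ∧ ∑ e ∈ J, 1 / (e : ℝ) ≤ K + 1


/-! ### Typical elements -/

/-- UT1: blocks `A ⊕ A'` (from `noG_sp`, `noG_su`, `noG_om` and `L14`) -/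
def UT1 : Prop := ∀ ε : ℝ, 0 < ε → ∃ K η : ℝ, 1 ≤ K ∧ 0 < η ∧ ∀ (F V : Type) [Field F] [Finite F] [AddCommGroup V]
  [Module F V] [Module.Finite F V] (Φ : Frm F V) (G : Subgroup (V ≃ₗ[F] V)) (N t p f : ℕ), Kl Φ G N t → p.Prime →
  Nat.card F = p ^ f → ∀ I : Finset ℕ, (∀ e ∈ I, Num η (finrank F V) p f e ∧ ParA Φ e) → K ≤ ∑ e ∈ I, 1 / (e : ℝ) →
  (cnt G (fun y => ¬ ∃ e ∈ I, ∃ A A' z, StA Φ e y A A' z) : ℝ) ≤ ε * Nat.card G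

/-- UT2: nondegenerate blocks (second moment; hub below) -/
def UT2 : Prop := ∀ ε : ℝ, 0 < ε → ∃ K η : ℝ, 1 ≤ K ∧ 0 < η ∧ ∀ (F V : Type) [Field F] [Finite F] [AddCommGroup V]
  [Module F V] [Module.Finite F V] (Φ : Frm F V) (G : Subgroup (V ≃ₗ[F] V)) (N t p f : ℕ), Kl Φ G N t → p.Prime →
  Nat.card F = p ^ f → ∀ I : Finset ℕ, (∀ e ∈ I, Num η (finrank F V) p f e ∧ ParE Φ e) → K ≤ ∑ e ∈ I, 1 / (e : ℝ) →
  (cnt G (fun y => ¬ ∃ e ∈ I, ∃ E z, StE Φ e y E z) : ℝ) ≤ ε * Nat.card G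

/-- UT3: linear case (from `noG_sl`, plus the first moment of the blocks whose order has no large `p`-primitive part) -/
def UT3 : Prop := ∀ ε : ℝ, 0 < ε → ∃ K η : ℝ, 1 ≤ K ∧ 0 < η ∧ ∀ (F V : Type) [Field F] [Finite F] [AddCommGroup V]
  [Module F V] [Module.Finite F V] (p f : ℕ), p.Prime → Nat.card F = p ^ f →
  ∀ I : Finset ℕ, (∀ e ∈ I, Num η (finrank F V) p f e) → K ≤ ∑ e ∈ I, 1 / (e : ℝ) →
  (cnt (slV F V) (fun y => ¬ ∃ e ∈ I, ∃ E C z, StL e y E C z ∧ Pp F e (orderOf z)) : ℝ) ≤ ε * Nat.card (slV F V)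

/-! ### First moments of pairs of blocks in bad position -/

section

variable {F V : Type*} [Field F] [AddCommGroup V] [Module F V]

/-- the standard position of the blocks -/
structure Cfg (Φ : Frm F V) (e d : ℕ) (E A A' : Submodule F V) : Prop where
  nd : Φ.NdOn E
  dim : finrank F E = e
  ti : Φ.TI A
  ti' : Φ.TI A'
  dimA : finrank F A = d
  dimA' : finrank F A' = d
  disj : Disjoint A A'
  ndA : Φ.NdOn (A ⊔ A')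
  orth : Φ.Orth E (A ⊔ A')

end

/-- UM1 -/
def UM1 : Prop := ∃ C : ℝ, ∀ (F V : Type) [Field F] [Finite F] [AddCommGroup V] [Module F V] [Module.Finite F V]
  (Φ : Frm F V) (G : Subgroup (V ≃ₗ[F] V)) (N t e d : ℕ), Kl Φ G N t → 2 * (e + 2 * d) + 3 ≤ finrank F V → 3 ≤ d → d < e →
  ∀ y₀ ∈ G, ∀ E₀ A₀ A₀' z₀ z₀', StE Φ e y₀ E₀ z₀ → StA Φ d y₀ A₀ A₀' z₀' → Cfg Φ e d E₀ A₀ A₀' ∧
  ∀ Bad : Submodule F V → Submodule F V → Submodule F V → Prop,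
  (cnt G (fun y => ∃ E A A' z z', StE Φ e y E z ∧ StA Φ d y A A' z' ∧ Bad E A A') : ℝ) * (e * d) ≤
    C * cnt G (fun g => Bad (E₀.map (g : V →ₗ[F] V)) (A₀.map (g : V →ₗ[F] V)) (A₀'.map (g : V →ₗ[F] V)))

/-- UM2 -/
def UM2 : Prop := ∀ (F V : Type) [Field F] [Finite F] [AddCommGroup V] [Module F V] [Module.Finite F V]
  (e d : ℕ), e + d < finrank F V → 3 ≤ d → d < e →
  ∀ E₀ E₀' C₀ : Submodule F V, finrank F E₀ = e → finrank F E₀' = d → Disjoint E₀ E₀' → IsCompl (E₀ ⊔ E₀') C₀ →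
  ∀ Bad : Submodule F V → Submodule F V → Submodule F V → Prop,
  cnt (slV F V) (fun y => ∃ E C E' C' z z', StL e y E C z ∧ StL d y E' C' z' ∧
      Bad E E' (C ⊓ C')) * (e * d) ≤
    cnt (slV F V) (fun g => Bad (E₀.map (g : V →ₗ[F] V)) (E₀'.map (g : V →ₗ[F] V)) (C₀.map (g : V →ₗ[F] V)))

/-! ### General position -/

/-- UG1 -/
def UG1 : Prop := ∃ C : ℝ, ∀ (F V : Type) [Field F] [Finite F] [AddCommGroup V] [Module F V] [Module.Finite F V]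
  (Φ : Frm F V) (G : Subgroup (V ≃ₗ[F] V)) (N t e d : ℕ), Kl Φ G N t → 4 ≤ t → 10 ≤ e → 3 ≤ d → 2 * d < e →
  8 * (e + 2 * d) + 40 ≤ finrank F V → ∀ E₀ A₀ A₀', Cfg Φ e d E₀ A₀ A₀' → ∀ x ∈ G, ¬ Sca x →
  (cnt G (fun g => ¬ GPF Φ x (E₀.map (g : V →ₗ[F] V)) (A₀.map (g : V →ₗ[F] V)) (A₀'.map (g : V →ₗ[F] V))) : ℝ) * t ≤
    C * Nat.card G

/-- UG2 -/
def UG2 : Prop := ∃ C : ℝ, ∀ (F V : Type) [Field F] [Finite F] [AddCommGroup V] [Module F V] [Module.Finite F V]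
  (e d : ℕ), 4 ≤ Nat.card F → 10 ≤ e → 3 ≤ d → d < e → 8 * (e + d) + 40 ≤ finrank F V →
  ∀ E₀ E₀' C₀ : Submodule F V, finrank F E₀ = e → finrank F E₀' = d → Disjoint E₀ E₀' → IsCompl (E₀ ⊔ E₀') C₀ →
  ∀ x ∈ slV F V, ¬ Sca x →
  (cnt (slV F V) (fun g => ¬ GPL x (E₀.map (g : V →ₗ[F] V)) (E₀'.map (g : V →ₗ[F] V)) (C₀.map (g : V →ₗ[F] V))) : ℝ) *
    Nat.card F ≤ C * Nat.card (slV F V)

/-! ### S5948 with the normaliser -/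

section

variable {F V : Type*} [Field F] [AddCommGroup V] [Module F V]

/-- similitudes -/
def Sim (Φ : Frm F V) (g : V ≃ₗ[F] V) : Prop := ∃ c : F, ∀ u v, Φ.B (g u) (g v) = c * Φ.B u v

end

/-- UN -/
def UN : Prop := ∀ (F U : Type) [Field F] [Finite F] [AddCommGroup U] [Module F U] [Module.Finite F U]
  (K : Subgroup (U ≃ₗ[F] U)) (k : ℕ) (g : U ≃ₗ[F] U) (C : Submodule F U), 10 ≤ finrank F U → finrank F U < 2 * k → IrrG K →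
  g ∈ K → Pp F k (orderOf g) → C ≠ ⊥ → finrank F C + k = finrank F U → (∀ v ∈ C, g v = v) →
  (∃ (r : ℕ) (T : Subalgebra F (Module.End F U)), r.Prime ∧ r ∣ Nat.gcd (finrank F U) k ∧ IsField T ∧ finrank F T = r ∧
    ∀ h ∈ K, ∀ a ∈ T, (h : U →ₗ[F] U) * a * ((h⁻¹ : U ≃ₗ[F] U) : U →ₗ[F] U) ∈ T) ∨
  slV F U ≤ K ∨
  (∃ Φ : Frm F U, IsSp Φ ∧ Φ.Iso ≤ K ∧ ∀ h ∈ K, Sim Φ h) ∨
  (∃ (r : ℕ) (Φ : Frm F U), IsHerm r Φ ∧ Φ.Iso ⊓ slV F U ≤ K ∧ ∀ h ∈ K, Sim Φ h) ∨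
  (∃ Q : QuadraticForm F U, (∀ v, Q v = 0 → (∀ w, QuadraticMap.polar Q v w = 0) → v = 0) ∧ E Q ≤ K ∧
    ∀ h ∈ K, ∃ c : F, ∀ v, Q (h v) = c * Q v)

/-! ### The group generated by the two blocks -/

/-- UK1 -/
def UK1 : Prop := ∀ (F V : Type) [Field F] [Finite F] [AddCommGroup V] [Module F V] [Module.Finite F V]
  (Φ : Frm F V) (e d : ℕ), Φ.Nd → ∀ x ∈ Φ.Iso, ∀ y ∈ Φ.Iso, ∀ E A A' z z', StE Φ e y E z → StA Φ d y A A' z' →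
  GPF Φ x E A A' → ∀ Y ≤ E ⊔ (A ⊔ A').map (x : V →ₗ[F] V), Inv z Y → Inv (x * z' * x⁻¹) Y →
    Y = ⊥ ∨ Y = E ⊔ (A ⊔ A').map (x : V →ₗ[F] V)

/-- UK2: linear case -/
def UK2 : Prop := ∀ (F V : Type) [Field F] [Finite F] [AddCommGroup V] [Module F V] [Module.Finite F V]
  (e d : ℕ) (x y z z' : V ≃ₗ[F] V) (E C E' C' : Submodule F V), e ≠ d → StL e y E C z → StL d y E' C' z' →
  (Disjoint E E' ∧ IsCompl (E ⊔ E') (C ⊓ C') ∧ C = E' ⊔ (C ⊓ C') ∧ C' = E ⊔ (C ⊓ C')) ∧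
  (GPL x E E' (C ⊓ C') → ∀ Y ≤ E ⊔ E'.map (x : V →ₗ[F] V), Inv z Y → Inv (x * z' * x⁻¹) Y →
    Y = ⊥ ∨ Y = E ⊔ E'.map (x : V →ₗ[F] V))

section

variable {F V : Type*} [Field F] [AddCommGroup V] [Module F V]

/-- the hypotheses of the deterministic part -/
structure Hyp (Φ : Frm F V) (G : Subgroup (V ≃ₗ[F] V)) (e d : ℕ) (x y : V ≃ₗ[F] V) (E A A' : Submodule F V)
    (z z' : V ≃ₗ[F] V) : Prop where
  kl : ∃ N t, Kl Φ G N t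
  hx : x ∈ G
  hy : y ∈ G
  sE : StE Φ e y E z
  sA : StA Φ d y A A' z'
  pE : ParE Φ e
  pA : ParA Φ d
  lt : 2 * d < e
  ten : 10 ≤ e
  pos : 3 ≤ d
  cop : Nat.Coprime e (2 * d) ∨ (Odd d ∧ Nat.Coprime e d)
  gp : GPF Φ x E A A'

end

/-- UK3: the group generated by `z` and `x z' x⁻¹` contains the classical group of the space
`W = E + x (A + A')` (uses `UN`, `UK1`) -/
def UK3 : Prop := ∀ (F V : Type) [Field F] [Finite F] [AddCommGroup V] [Module F V] [Module.Finite F V]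
  (Φ : Frm F V) (G : Subgroup (V ≃ₗ[F] V)) (e d : ℕ) (x y z z' : V ≃ₗ[F] V) (E A A' W : Submodule F V)
  (H : Subgroup (V ≃ₗ[F] V)), Hyp Φ G e d x y E A A' z z' → W = E ⊔ (A ⊔ A').map (x : V →ₗ[F] V) → z ∈ H →
  x * z' * x⁻¹ ∈ H →
  (IsSp Φ → (2 : F) ≠ 0 → HasOn Φ.Iso H W (perp Φ W)) ∧
  (∀ r, IsHerm r Φ → HasOn (Φ.Iso ⊓ slV F V) H W (perp Φ W)) ∧
  (∀ Q : QuadraticForm F V, Φ = frmQ Q → ∀ u ∈ W, ∀ w ∈ W, Q u = 0 → QuadraticMap.polar Q u w = 0 →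
    H883.Root.Has Q H u w) ∧
  (IsSp Φ → (2 : F) = 0 → ∃ q : V → F, HasS Φ q H W)

/-- UK4: linear case (uses `UN`, `UK2`) -/
def UK4 : Prop := ∀ (F V : Type) [Field F] [Finite F] [AddCommGroup V] [Module F V] [Module.Finite F V]
  (e d : ℕ) (x y z z' : V ≃ₗ[F] V) (E C E' C' : Submodule F V) (H : Subgroup (V ≃ₗ[F] V)),
  y ∈ slV F V → Odd e → Even d → 3 ≤ d → d < e → Nat.Coprime e d → 10 ≤ e → StL e y E C z → Pp F e (orderOf z) →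
  StL d y E' C' z' → GPL x E E' (C ⊓ C') → z ∈ H → x * z' * x⁻¹ ∈ H →
  HasOn (slV F V) H (E ⊔ E'.map (x : V →ₗ[F] V)) (C ⊓ C'.map (x : V →ₗ[F] V))

/-! ### No blocks -/

/-- UB1: `closure {x, y}` has no orthogonal decomposition -/
def UB1 : Prop := ∀ (F V : Type) [Field F] [Finite F] [AddCommGroup V] [Module F V] [Module.Finite F V]
  (Φ : Frm F V) (e : ℕ), Φ.Nd → ∀ x ∈ Φ.Iso, ∀ y ∈ Φ.Iso, ∀ E z, StE Φ e y E z →
  (∃ a ∈ E, ∃ b ∈ E, Φ.B (x a) b ≠ 0) → IrrG (closure {x, y}) → ∀ D : Submodule F V, Blk Φ (closure {x, y}) D →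
  ¬ 3 ≤ finrank F D

/-- UB2: linear case -/
def UB2 : Prop := ∀ (F V : Type) [Field F] [Finite F] [AddCommGroup V] [Module F V] [Module.Finite F V]
  (e : ℕ) (x y z : V ≃ₗ[F] V) (E C : Submodule F V), StL e y E C z → Pp F e (orderOf z) → (∃ a ∈ E, x a ∉ C) →
  IrrG (closure {x, y}) → ∀ D : Submodule F V, BlkL (closure {x, y}) D → ¬ 3 ≤ finrank F D

/-! ### Symplectic groups in characteristic two -/

section

variable {F V : Type*} [Field F] [AddCommGroup V] [Module F V]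

/-- `x` and `y` fix a common quadratic form with polar form `Φ.B` -/
def ComQ (Φ : Frm F V) (x y : V ≃ₗ[F] V) : Prop :=
  ∃ Q : QuadraticForm F V, (∀ u v, QuadraticMap.polar Q u v = Φ.B u v) ∧ (∀ v, Q (x v) = Q v) ∧ ∀ v, Q (y v) = Q v

end

/-- UF1: growth -/
def UF1 : Prop := ∀ (F V : Type) [Field F] [Finite F] [AddCommGroup V] [Module F V] [Module.Finite F V]
  (Φ : Frm F V) (q : V → F) (H : Subgroup (V ≃ₗ[F] V)) (W : Submodule F V), IsSp Φ → (2 : F) = 0 → H ≤ Φ.Iso → IrrG H →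
  Φ.NdOn W → 12 ≤ finrank F W → HasS Φ q H W →
  (∃ Q : QuadraticForm F V, (∀ u v, QuadraticMap.polar Q u v = Φ.B u v) ∧ E Q ≤ H) ∨
    ∃ D : Submodule F V, Blk Φ H D ∧ 3 ≤ finrank F D

/-- UF2: `Ω(Q) ≤ H ≤ Sp(V)` -/
def UF2 : Prop := ∀ (F V : Type) [Field F] [Finite F] [AddCommGroup V] [Module F V] [Module.Finite F V]
  (Φ : Frm F V) (Q : QuadraticForm F V) (H : Subgroup (V ≃ₗ[F] V)), IsSp Φ → (2 : F) = 0 → 8 ≤ finrank F V → H ≤ Φ.Iso →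
  (∀ u v, QuadraticMap.polar Q u v = Φ.B u v) → E Q ≤ H → (∀ g ∈ H, ∀ v, Q (g v) = Q v) ∨ H = Φ.Iso

/-- UF3: common quadratic forms are rare -/
def UF3 : Prop := ∃ (C : ℝ) (n₀ : ℕ), ∀ (F V : Type) [Field F] [Finite F] [AddCommGroup V] [Module F V] [Module.Finite F V]
  (Φ : Frm F V), IsSp Φ → (2 : F) = 0 → n₀ ≤ finrank F V → ∀ x ∈ Φ.Iso, x ≠ 1 →
  (cnt Φ.Iso (fun y => ComQ Φ x y) : ℝ) * Nat.card F ≤ C * Nat.card Φ.Iso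

/-! ### The deterministic part -/

/-- UD1: linear case (from `UK2`, `UK4`, `S30`, `UB2`) -/
def UD1 : Prop := ∀ (F V : Type) [Field F] [Finite F] [AddCommGroup V] [Module F V] [Module.Finite F V]
  (e d : ℕ) (x y z z' : V ≃ₗ[F] V) (E C E' C' : Submodule F V), x ∈ slV F V →
  y ∈ slV F V → Odd e → Even d → 3 ≤ d → d < e → Nat.Coprime e d → 10 ≤ e → StL e y E C z → Pp F e (orderOf z) →
  StL d y E' C' z' → GPL x E E' (C ⊓ C') → IrrG (closure {x, y}) → closure {x, y} = slV F V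

/-- UD2: forms (from `UK3`, `S31`-`S33`, `UB1`, `UF1`, `UF2`) -/
def UD2 : Prop := ∀ (F V : Type) [Field F] [Finite F] [AddCommGroup V] [Module F V] [Module.Finite F V]
  (Φ : Frm F V) (G : Subgroup (V ≃ₗ[F] V)) (e d : ℕ) (x y z z' : V ≃ₗ[F] V) (E A A' : Submodule F V),
  Hyp Φ G e d x y E A A' z z' → IrrG (closure {x, y}) → (IsSp Φ → (2 : F) = 0 → ¬ ComQ Φ x y) → closure {x, y} = G

end Cfsg.Agent.H141.Ux
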