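import Cfsg.Agent.H141.Ux.Stmts

/-!
# UX (S5716, unbounded rank): assembly (helper141)

* `xf : UR2 → UI → UT1 → UT2 → UM1 → UG1 → UF3 → UD2 → Xf`;
* `xsl : UR1 → UI → UT3 → UM2 → UG2 → UK2 → UD1 → Xsl`.
-/

set_option autoImplicit false
set_option linter.unusedSectionVars false

namespace Cfsg.Agent.H141.Ux

open Module Cfsg.Agent.H847.Bs Cfsg.Agent.LieClassical.OrthCore
open Cfsg.Agent.H440.Bs (perp mem_perp)
open Cfsg Subgroup

section cnt

variable {F V : Type*} [Field F] [AddCommGroup V] [Module F V]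

theorem fin_gl [Finite F] [Module.Finite F V] : Finite (V ≃ₗ[F] V) := by
  have : Finite V := Module.finite_of_finite F
  exact Finite.of_injective (fun g : V ≃ₗ[F] V => (g : V → V)) DFunLike.coe_injective

variable [Finite F] [Module.Finite F V] (G : Subgroup (V ≃ₗ[F] V))

theorem cnt_mono {P P' : (V ≃ₗ[F] V) → Prop} (h : ∀ y ∈ G, P y → P' y) : cnt G P ≤ cnt G P' := by
  have : Finite (V ≃ₗ[F] V) := fin_gl
  exact Nat.card_le_card_of_injective (fun y : {y // y ∈ G ∧ P y} => (⟨y.1, y.2.1, h _ y.2.1 y.2.2⟩ : {y // y ∈ G ∧ P' y}))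
    fun a b hab => Subtype.ext (congrArg (fun z : {y // y ∈ G ∧ P' y} => z.1) hab)

theorem cnt_or (P P' : (V ≃ₗ[F] V) → Prop) : cnt G (fun y => P y ∨ P' y) ≤ cnt G P + cnt G P' := by
  classical
  have : Finite (V ≃ₗ[F] V) := fin_gl
  have := Fintype.ofFinite (V ≃ₗ[F] V)
  unfold cnt
  rw [Nat.card_eq_fintype_card, Nat.card_eq_fintype_card, Nat.card_eq_fintype_card, Fintype.card_subtype,
    Fintype.card_subtype, Fintype.card_subtype]
  refine (Finset.card_le_card ?_).trans (Finset.card_union_le _ _)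
  intro y hy
  simp only [Finset.mem_filter, Finset.mem_univ, true_and, Finset.mem_union] at hy ⊢
  tauto

theorem cnt_exists {α : Type*} (s : Finset α) (P : α → (V ≃ₗ[F] V) → Prop) :
    cnt G (fun y => ∃ a ∈ s, P a y) ≤ ∑ a ∈ s, cnt G (P a) := by
  classical
  induction s using Finset.induction_on with
  | empty =>
    rw [Finset.sum_empty, Nat.le_zero]
    unfold cnt
    have : IsEmpty {y : V ≃ₗ[F] V // y ∈ G ∧ ∃ a ∈ (∅ : Finset α), P a y} := ⟨fun y => by
      obtain ⟨a, ha, -⟩ := y.2.2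
      exact absurd ha (Finset.notMem_empty a)⟩
    exact Nat.card_of_isEmpty
  | insert a s ha ih =>
    rw [Finset.sum_insert ha]
    refine (cnt_mono G (P' := fun y => P a y ∨ ∃ a ∈ s, P a y) ?_).trans ((cnt_or G _ _).trans (Nat.add_le_add_left ih _))
    rintro y - ⟨b, hb, hP⟩
    rcases Finset.mem_insert.1 hb with rfl | hb
    · exact Or.inl hP
    · exact Or.inr ⟨b, hb, hP⟩

theorem cnt_false {P : (V ≃ₗ[F] V) → Prop} (h : ∀ y ∈ G, ¬ P y) : cnt G P = 0 := by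
  unfold cnt
  have : IsEmpty {y : V ≃ₗ[F] V // y ∈ G ∧ P y} := ⟨fun y => h _ y.2.1 y.2.2⟩
  exact Nat.card_of_isEmpty

end cnt

section basic

variable {F : Type*} [Field F] [Finite F]

theorem exists_pf (F : Type*) [Field F] [Finite F] : ∃ p f : ℕ, p.Prime ∧ 1 ≤ f ∧ Nat.card F = p ^ f ∧ p = ringChar F := by
  have := Fintype.ofFinite F
  obtain ⟨p, hp⟩ := CharP.exists F
  obtain ⟨f, hpp, hf⟩ := FiniteField.card F p
  refine ⟨p, f, hpp, f.2, ?_, (ringChar.eq F p).symm ▸ rfl⟩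
  rw [Nat.card_eq_fintype_card, hf]

end basic

/-- the double sum -/
theorem sum_sum (I J : Finset ℕ) (K : ℝ) (hK : 1 ≤ K) (hI : ∑ e ∈ I, 1 / (e : ℝ) ≤ K + 1)
    (hJ : ∑ e ∈ J, 1 / (e : ℝ) ≤ K + 1) :
    ∑ e ∈ J, ∑ d ∈ I, 1 / ((e : ℝ) * d) ≤ (K + 1) ^ 2 := by
  have h : ∑ e ∈ J, ∑ d ∈ I, 1 / ((e : ℝ) * d) = (∑ e ∈ J, 1 / (e : ℝ)) * ∑ d ∈ I, 1 / (d : ℝ) := by
    rw [Finset.sum_mul_sum]
    refine Finset.sum_congr rfl fun e _ => Finset.sum_congr rfl fun d _ => ?_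
    rw [one_div_mul_one_div]
  rw [h, sq]
  have h0 : 0 ≤ ∑ d ∈ I, 1 / (d : ℝ) := Finset.sum_nonneg fun d _ => by positivity
  exact mul_le_mul hJ hI h0 (by linarith)

theorem xf (hR : UR2) (hI : UI) (h1 : UT1) (h2 : UT2) (hM : UM1) (hG : UG1) (hQ : UF3) (hD : UD2) : Xf := by
  intro ε hε
  obtain ⟨K1, η1, hK1, hη1, h1⟩ := h1 (ε / 5) (by positivity)
  obtain ⟨K2, η2, hK2, hη2, h2⟩ := h2 (ε / 5) (by positivity)
  obtain ⟨CM, hM⟩ := hM
  obtain ⟨CG, hG⟩ := hG
  obtain ⟨CR, nR, hR⟩ := hR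
  obtain ⟨CQ, nQ, hQ⟩ := hQ
  set K := max K1 K2 with hKdef
  set η := min η1 η2 with hηdef
  have hK : 1 ≤ K := hK1.trans (le_max_left _ _)
  have hη : 0 < η := lt_min hη1 hη2
  obtain ⟨Na, ha⟩ := hI K η 1 2 hη hK (Or.inl ⟨rfl, rfl⟩)
  obtain ⟨Nb, hb⟩ := hI K η 2 1 hη hK (Or.inr ⟨rfl, rfl⟩)
  set B : ℝ := |CR| + |CQ| + |CM| * |CG| * (K + 1) ^ 2 + 1 with hB
  have hB0 : 0 < B := by positivity
  obtain ⟨Q1, hQ1⟩ := exists_nat_ge (5 * B / ε)
  refine ⟨max (max Na Nb) (max nR nQ), max Q1 4, ?_⟩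
  intro F V _ _ _ _ _ Φ G N t hKl hn ht x hx hxs
  have hfin : Finite (V ≃ₗ[F] V) := fin_gl
  have ht4 : 4 ≤ t := (le_max_right _ _).trans ht
  have htQ : (5 * B / ε : ℝ) ≤ t := hQ1.trans (by exact_mod_cast (le_max_left _ _).trans ht)
  have ht0 : (0 : ℝ) < t := by
    have : (4 : ℝ) ≤ t := by exact_mod_cast ht4
    linarith
  have hBt : B / t ≤ ε / 5 := by
    rw [div_le_iff₀ hε] at htQ
    rw [div_le_div_iff₀ ht0 (by norm_num)]
    linarith
  obtain ⟨p, f, hp, hf, hpf, -⟩ := exists_pf F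
  have hnNa : Na ≤ finrank F V := ((le_max_left _ _).trans (le_max_left _ _)).trans hn
  have hnNb : Nb ≤ finrank F V := ((le_max_right _ _).trans (le_max_left _ _)).trans hn
  have hnR : nR ≤ finrank F V := ((le_max_left _ _).trans (le_max_right _ _)).trans hn
  have hnQ : nQ ≤ finrank F V := ((le_max_right _ _).trans (le_max_right _ _)).trans hn
  -- the index sets
  obtain ⟨I, J, hNum, hIA, hJE, hlt, hcop, hI1, hI2, hJ1, hJ2⟩ : ∃ I J : Finset ℕ,
      (∀ e ∈ I ∪ J, Num η (finrank F V) p f e) ∧ (∀ e ∈ I, ParA Φ e) ∧ (∀ e ∈ J, ParE Φ e) ∧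
      (∀ e ∈ J, ∀ d ∈ I, 4 * d < e) ∧
      (∀ e ∈ J, ∀ d ∈ I, Nat.Coprime e (2 * d) ∨ (Odd d ∧ Nat.Coprime e d)) ∧
      K ≤ ∑ e ∈ I, 1 / (e : ℝ) ∧ ∑ e ∈ I, 1 / (e : ℝ) ≤ K + 1 ∧ K ≤ ∑ e ∈ J, 1 / (e : ℝ) ∧
        ∑ e ∈ J, 1 / (e : ℝ) ≤ K + 1 := by
    by_cases hher : ∃ r, IsHerm r Φ
    · obtain ⟨I, J, h1, h2, h3, h4, h5⟩ := hb (finrank F V) p f hnNb hp hf
      refine ⟨I, J, h1, fun e he => ?_, fun e he => ?_, fun e he d hd => (h4 e he d hd).1, fun e he d hd => ?_, h5⟩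
      · obtain ⟨l, -, -, rfl⟩ := h2 e he
        exact Or.inr ⟨hher, even_two_mul l⟩
      · obtain ⟨l, -, hl, rfl⟩ := h3 e he
        exact Or.inr ⟨hher, by rwa [one_mul]⟩
      · have := (h4 e he d hd).2
        simp only [OfNat.ofNat_ne_one, if_false] at this
        exact Or.inl this
    · have hcl : IsSp Φ ∨ ∃ Q : QuadraticForm F V, Φ = frmQ Q := by
        rcases hKl with h | ⟨r, h, -⟩ | ⟨Q, -, h, -⟩
        · exact Or.inl h.1
        · exact absurd ⟨r, h⟩ hher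
        · exact Or.inr ⟨Q, h⟩
      obtain ⟨I, J, h1, h2, h3, h4, h5⟩ := ha (finrank F V) p f hnNa hp hf
      refine ⟨I, J, h1, fun e he => ?_, fun e he => ?_, fun e he d hd => (h4 e he d hd).1, fun e he d hd => ?_, h5⟩
      · obtain ⟨l, -, hl, rfl⟩ := h2 e he
        exact Or.inl ⟨hcl, by rwa [one_mul]⟩
      · obtain ⟨l, -, hl, rfl⟩ := h3 e he
        exact Or.inl ⟨hcl, even_two_mul l⟩
      · have := (h4 e he d hd).2
        simp only [if_true] at this
        obtain ⟨l, -, hl, rfl⟩ := h2 d hd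
        exact Or.inr ⟨by rwa [one_mul], this⟩
  -- the bounds
  have numI : ∀ {η' : ℝ}, η ≤ η' → ∀ e ∈ I, Num η' (finrank F V) p f e := fun hη' e he => by
    have h := hNum e (Finset.mem_union_left _ he)
    exact ⟨h.le, h.ge, h.nd, h.sum.trans hη', h.small.trans hη', h.big, h.bigp⟩
  have numJ : ∀ {η' : ℝ}, η ≤ η' → ∀ e ∈ J, Num η' (finrank F V) p f e := fun hη' e he => by
    have h := hNum e (Finset.mem_union_right _ he)
    exact ⟨h.le, h.ge, h.nd, h.sum.trans hη', h.small.trans hη', h.big, h.bigp⟩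
  have b1 := h1 F V Φ G N t p f hKl hp hpf I (fun e he => ⟨numI (min_le_left _ _) e he, hIA e he⟩)
    ((le_max_left _ _).trans hI1)
  have b2 := h2 F V Φ G N t p f hKl hp hpf J (fun e he => ⟨numJ (min_le_right _ _) e he, hJE e he⟩)
    ((le_max_right _ _).trans hJ1)
  have g0 : (0 : ℝ) ≤ Nat.card G := Nat.cast_nonneg _
  have b3 : (cnt G (fun y => ¬ IrrG (closure {x, y})) : ℝ) ≤ |CR| / t * Nat.card G := by
    have h := hR F V Φ G N t hKl hnR ht4 x hx hxs
    rw [div_mul_eq_mul_div, le_div_iff₀ ht0]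
    exact h.trans (mul_le_mul_of_nonneg_right (le_abs_self _) g0)
  have b4 : (cnt G (fun y => IsSp Φ ∧ (2 : F) = 0 ∧ ComQ Φ x y) : ℝ) ≤ |CQ| / t * Nat.card G := by
    by_cases hsp : IsSp Φ ∧ (2 : F) = 0
    · have hKl' : G = Φ.Iso ∧ t = Nat.card F := by
        rcases hKl with ⟨-, h2, -, h4⟩ | ⟨r, h, -⟩ | ⟨Q, hQn, h, -⟩
        · exact ⟨h2, h4⟩
        · exfalso
          have hc := h.card
          have h1 := h.s
          have h2 := hsp.1.s
          have hr : ∀ a : F, a ^ r = a := fun a => by rw [← h1, h2]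
          have hr2 : 2 ≤ r := by
            by_contra hr2
            have : r = 0 ∨ r = 1 := by omega
            have h3 : 1 < Nat.card F := Finite.one_lt_card
            rcases this with rfl | rfl
            · rw [hc] at h3; norm_num at h3
            · rw [hc] at h3; norm_num at h3
          have := Fintype.ofFinite F
          classical
          have h3 : (Finset.univ : Finset F) ⊆ (Polynomial.X ^ r - Polynomial.X : Polynomial F).roots.toFinset := by
            intro a _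
            rw [Multiset.mem_toFinset, Polynomial.mem_roots (FiniteField.X_pow_card_sub_X_ne_zero F (by omega))]
            simp [hr a]
          have h4 := (Finset.card_le_card h3).trans ((Multiset.toFinset_card_le _).trans (Polynomial.card_roots' _))
          rw [FiniteField.X_pow_card_sub_X_natDegree_eq F (by omega), Finset.card_univ, ← Nat.card_eq_fintype_card, hc] at h4
          nlinarith
        · exfalso
          have hq0 : ∀ v, Q v = 0 := fun v => by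
            have := hsp.1.q v
            rw [h] at this
            exact this
          have hz : ∀ u v, Φ.B u v = 0 := fun u v => by
            rw [h]
            change QuadraticMap.polar Q u v = 0
            rw [QuadraticMap.polar, hq0, hq0, hq0]
            simp
          have hV : ∀ v : V, v = 0 := fun v => hsp.1.nd v fun w => hz v w
          exact hxs ⟨1, fun v => by rw [hV v, map_zero, smul_zero]⟩
      have hx1 : x ≠ 1 := fun h => hxs ⟨1, fun v => by rw [h, one_smul]; rfl⟩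
      have h := hQ F V Φ hsp.1 hsp.2 hnQ x (hKl'.1 ▸ hx) hx1
      rw [div_mul_eq_mul_div, le_div_iff₀ ht0]
      have h' : (cnt G (fun y => IsSp Φ ∧ (2 : F) = 0 ∧ ComQ Φ x y) : ℝ) ≤ cnt G (fun y => ComQ Φ x y) := by
        exact_mod_cast cnt_mono G (P := fun y => IsSp Φ ∧ (2 : F) = 0 ∧ ComQ Φ x y) (P' := fun y => ComQ Φ x y)
          fun y _ h => h.2.2
      rw [← hKl'.1, ← hKl'.2] at h
      calc _ ≤ (cnt G (fun y => ComQ Φ x y) : ℝ) * t := mul_le_mul_of_nonneg_right h' ht0.le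
        _ ≤ CQ * Nat.card G := h
        _ ≤ _ := mul_le_mul_of_nonneg_right (le_abs_self _) g0
    · rw [cnt_false G (P := fun y => IsSp Φ ∧ (2 : F) = 0 ∧ ComQ Φ x y) fun y _ h => hsp ⟨h.1, h.2.1⟩]
      push_cast
      positivity
  have b5 : ∀ e ∈ J, ∀ d ∈ I, (cnt G (fun y => ∃ E A A' z z', StE Φ e y E z ∧ StA Φ d y A A' z' ∧
      ¬ GPF Φ x E A A') : ℝ) ≤ |CM| * |CG| / t * Nat.card G * (1 / ((e : ℝ) * d)) := by
    intro e he d hd
    have he1 := hNum e (Finset.mem_union_right _ he)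
    have hd1 := hNum d (Finset.mem_union_left _ hd)
    have hed := hlt e he d hd
    have he0 : (0 : ℝ) < e := by
      have := he1.ge
      exact_mod_cast (by omega : 0 < e)
    have hd0 : (0 : ℝ) < d := by
      have := hd1.ge
      exact_mod_cast (by omega : 0 < d)
    by_cases hex : ∃ y₀ ∈ G, ∃ E₀ A₀ A₀' z₀ z₀', StE Φ e y₀ E₀ z₀ ∧ StA Φ d y₀ A₀ A₀' z₀'
    · obtain ⟨y₀, hy₀, E₀, A₀, A₀', z₀, z₀', hE, hA⟩ := hex
      have hle := he1.le
      have hge := he1.ge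
      have hgd := hd1.ge
      obtain ⟨hc, hm⟩ := hM F V Φ G N t e d hKl (by omega) (by omega) (by omega) y₀ hy₀ E₀ A₀ A₀' z₀ z₀' hE hA
      have hm := hm (fun E A A' => ¬ GPF Φ x E A A')
      have hg := hG F V Φ G N t e d hKl ht4 (by omega) (by omega) (by omega) (by omega) E₀ A₀ A₀' hc x hx hxs
      set X : ℝ := (cnt G (fun y => ∃ E A A' z z', StE Φ e y E z ∧ StA Φ d y A A' z' ∧ ¬ GPF Φ x E A A') : ℝ) with hX
      set Y : ℝ := (cnt G (fun g => ¬ GPF Φ x (E₀.map (g : V →ₗ[F] V)) (A₀.map (g : V →ₗ[F] V))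
        (A₀'.map (g : V →ₗ[F] V))) : ℝ) with hY
      have hY0 : 0 ≤ Y := Nat.cast_nonneg _
      have h3 : X * (e * d) ≤ |CM| * Y := hm.trans (mul_le_mul_of_nonneg_right (le_abs_self _) hY0)
      have h4 : Y ≤ |CG| * Nat.card G / t := by
        rw [le_div_iff₀ ht0]
        exact hg.trans (mul_le_mul_of_nonneg_right (le_abs_self _) g0)
      have h5 : X * (e * d) ≤ |CM| * (|CG| * Nat.card G / t) :=
        h3.trans (mul_le_mul_of_nonneg_left h4 (abs_nonneg _))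
      rw [mul_one_div, le_div_iff₀ (by positivity)]
      calc X * (e * d) ≤ |CM| * (|CG| * Nat.card G / t) := h5
        _ = _ := by ring
    · rw [cnt_false G fun y hy h => hex ⟨y, hy, by
        obtain ⟨E, A, A', z, z', h1, h2, -⟩ := h
        exact ⟨E, A, A', z, z', h1, h2⟩⟩]
      push_cast
      positivity
  -- the union
  have hun : cnt G (fun y => closure {x, y} ≠ G) ≤
      cnt G (fun y => ¬ ∃ e ∈ I, ∃ A A' z, StA Φ e y A A' z) + (cnt G (fun y => ¬ ∃ e ∈ J, ∃ E z, StE Φ e y E z) +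
      (cnt G (fun y => ¬ IrrG (closure {x, y})) + (cnt G (fun y => IsSp Φ ∧ (2 : F) = 0 ∧ ComQ Φ x y) +
      ∑ e ∈ J, ∑ d ∈ I, cnt G (fun y => ∃ E A A' z z', StE Φ e y E z ∧ StA Φ d y A A' z' ∧ ¬ GPF Φ x E A A')))) := by
    refine (cnt_mono G (P' := fun y => (¬ ∃ e ∈ I, ∃ A A' z, StA Φ e y A A' z) ∨ ((¬ ∃ e ∈ J, ∃ E z, StE Φ e y E z) ∨
      ((¬ IrrG (closure {x, y})) ∨ ((IsSp Φ ∧ (2 : F) = 0 ∧ ComQ Φ x y) ∨
      ∃ e ∈ J, ∃ d ∈ I, ∃ E A A' z z', StE Φ e y E z ∧ StA Φ d y A A' z' ∧ ¬ GPF Φ x E A A')))) ?_).trans ?_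
    · intro y hy hne
      by_contra hcon
      have hc1 := not_or.1 hcon
      have hc2 := not_or.1 hc1.2
      have hc3 := not_or.1 hc2.2
      have hc4 := not_or.1 hc3.2
      obtain ⟨d, hd, A, A', z', hA⟩ := not_not.1 hc1.1
      obtain ⟨e, he, E, z, hE⟩ := not_not.1 hc2.1
      have hirr := not_not.1 hc3.1
      have hcom := hc4.1
      have hgp : GPF Φ x E A A' := by
        by_contra hg
        exact hc4.2 ⟨e, he, d, hd, E, A, A', z, z', hE, hA, hg⟩
      have he1 := hNum e (Finset.mem_union_right _ he)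
      have hd1 := hNum d (Finset.mem_union_left _ hd)
      have hed := hlt e he d hd
      refine hne (hD F V Φ G e d x y z z' E A A' ⟨⟨N, t, hKl⟩, hx, hy, hE, hA, hJE e he, hIA d hd, by omega, by
        have := he1.ge; omega, by have := hd1.ge; omega, hcop e he d hd, hgp⟩ hirr fun h1 h2 h3 => hcom ⟨h1, h2, h3⟩)
    · refine (cnt_or G _ _).trans (Nat.add_le_add_left ?_ _)
      refine (cnt_or G _ _).trans (Nat.add_le_add_left ?_ _)
      refine (cnt_or G _ _).trans (Nat.add_le_add_left ?_ _)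
      refine (cnt_or G _ _).trans (Nat.add_le_add_left ?_ _)
      refine (cnt_exists G J _).trans (Finset.sum_le_sum fun e _ => ?_)
      exact cnt_exists G I _
  have hun' : (cnt G (fun y => closure {x, y} ≠ G) : ℝ) ≤
      cnt G (fun y => ¬ ∃ e ∈ I, ∃ A A' z, StA Φ e y A A' z) + (cnt G (fun y => ¬ ∃ e ∈ J, ∃ E z, StE Φ e y E z) +
      (cnt G (fun y => ¬ IrrG (closure {x, y})) + (cnt G (fun y => IsSp Φ ∧ (2 : F) = 0 ∧ ComQ Φ x y) +
      ∑ e ∈ J, ∑ d ∈ I, (cnt G (fun y => ∃ E A A' z z', StE Φ e y E z ∧ StA Φ d y A A' z' ∧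
        ¬ GPF Φ x E A A') : ℝ)))) := by
    exact_mod_cast hun
  have b6 : ∑ e ∈ J, ∑ d ∈ I, (cnt G (fun y => ∃ E A A' z z', StE Φ e y E z ∧ StA Φ d y A A' z' ∧
      ¬ GPF Φ x E A A') : ℝ) ≤ |CM| * |CG| / t * Nat.card G * (K + 1) ^ 2 := by
    calc _ ≤ ∑ e ∈ J, ∑ d ∈ I, |CM| * |CG| / t * Nat.card G * (1 / ((e : ℝ) * d)) :=
          Finset.sum_le_sum fun e he => Finset.sum_le_sum fun d hd => b5 e he d hd
      _ = |CM| * |CG| / t * Nat.card G * ∑ e ∈ J, ∑ d ∈ I, 1 / ((e : ℝ) * d) := by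
          rw [Finset.mul_sum]
          exact Finset.sum_congr rfl fun e _ => by rw [Finset.mul_sum]
      _ ≤ _ := mul_le_mul_of_nonneg_left (sum_sum I J K hK hI2 hJ2) (by positivity)
  have hfinal : |CR| / t * Nat.card G + (|CQ| / t * Nat.card G + |CM| * |CG| / t * Nat.card G * (K + 1) ^ 2) ≤
      ε / 5 * (Nat.card G : ℝ) := by
    have h7 : |CR| / t * Nat.card G + (|CQ| / t * Nat.card G + |CM| * |CG| / t * Nat.card G * (K + 1) ^ 2) =
        (B - 1) / t * Nat.card G := by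
      rw [hB]
      field_simp
      ring
    rw [h7]
    refine mul_le_mul_of_nonneg_right (le_trans ?_ hBt) g0
    exact div_le_div_of_nonneg_right (by linarith) ht0.le
  have : ε / 5 * (Nat.card G : ℝ) ≤ ε * Nat.card G := mul_le_mul_of_nonneg_right (by linarith) g0
  nlinarith [hun', b1, b2, b3, b4, b6, hfinal]

theorem xsl (hR : UR1) (hI : UI) (h3 : UT3) (hM : UM2) (hG : UG2) (hK2 : UK2) (hD : UD1) : Xsl := by
  intro ε hε
  obtain ⟨K, η, hK, hη, h3⟩ := h3 (ε / 5) (by positivity)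
  obtain ⟨CG, hG⟩ := hG
  obtain ⟨CR, nR, hR⟩ := hR
  obtain ⟨Nb, hb⟩ := hI K η 2 1 hη hK (Or.inr ⟨rfl, rfl⟩)
  set B : ℝ := |CR| + |CG| * (K + 1) ^ 2 + 1 with hB
  have hB0 : 0 < B := by positivity
  obtain ⟨Q1, hQ1⟩ := exists_nat_ge (5 * B / ε)
  refine ⟨max Nb nR, max Q1 4, ?_⟩
  intro F V _ _ _ _ _ hn ht x hx hxs
  have hfin : Finite (V ≃ₗ[F] V) := fin_gl
  set t := Nat.card F with ht_def
  set G := slV F V with hGdef
  have ht4 : 4 ≤ t := (le_max_right _ _).trans ht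
  have htQ : (5 * B / ε : ℝ) ≤ t := hQ1.trans (by exact_mod_cast (le_max_left _ _).trans ht)
  have ht0 : (0 : ℝ) < t := by
    have : (4 : ℝ) ≤ t := by exact_mod_cast ht4
    linarith
  have hBt : B / t ≤ ε / 5 := by
    rw [div_le_iff₀ hε] at htQ
    rw [div_le_div_iff₀ ht0 (by norm_num)]
    linarith
  obtain ⟨p, f, hp, hf, hpf, -⟩ := exists_pf F
  have hnNb : Nb ≤ finrank F V := (le_max_left _ _).trans hn
  have hnR : nR ≤ finrank F V := (le_max_right _ _).trans hn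
  obtain ⟨I, J, hNum, hIA, hJE, hlt, hI1, hI2, hJ1, hJ2⟩ := hb (finrank F V) p f hnNb hp hf
  have evI : ∀ d ∈ I, Even d := fun d hd => by
    obtain ⟨l, -, -, rfl⟩ := hIA d hd
    exact even_two_mul l
  have odJ : ∀ e ∈ J, Odd e := fun e he => by
    obtain ⟨l, -, hl, rfl⟩ := hJE e he
    rwa [one_mul]
  have cop : ∀ e ∈ J, ∀ d ∈ I, Nat.Coprime e d := fun e he d hd => by
    have := (hlt e he d hd).2
    simp only [OfNat.ofNat_ne_one, if_false] at this
    exact Nat.Coprime.coprime_mul_left_right this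
  have numI : ∀ e ∈ I, Num η (finrank F V) p f e := fun e he => hNum e (Finset.mem_union_left _ he)
  have numJ : ∀ e ∈ J, Num η (finrank F V) p f e := fun e he => hNum e (Finset.mem_union_right _ he)
  have b1 := h3 F V p f hp hpf I numI hI1
  have b2 := h3 F V p f hp hpf J numJ hJ1
  have g0 : (0 : ℝ) ≤ Nat.card G := Nat.cast_nonneg _
  have b3 : (cnt G (fun y => ¬ IrrG (closure {x, y})) : ℝ) ≤ |CR| / t * Nat.card G := by
    have h := hR F V hnR ht4 x hx hxs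
    rw [div_mul_eq_mul_div, le_div_iff₀ ht0]
    exact h.trans (mul_le_mul_of_nonneg_right (le_abs_self _) g0)
  have b5 : ∀ e ∈ J, ∀ d ∈ I, (cnt G (fun y => ∃ E C E' C' z z', StL e y E C z ∧ StL d y E' C' z' ∧
      ¬ GPL x E E' (C ⊓ C')) : ℝ) ≤ |CG| / t * Nat.card G * (1 / ((e : ℝ) * d)) := by
    intro e he d hd
    have he1 := numJ e he
    have hd1 := numI d hd
    have hed := (hlt e he d hd).1
    have he0 : (0 : ℝ) < e := by
      have := he1.ge
      exact_mod_cast (by omega : 0 < e)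
    have hd0 : (0 : ℝ) < d := by
      have := hd1.ge
      exact_mod_cast (by omega : 0 < d)
    by_cases hex : ∃ y₀ ∈ G, ∃ E₀ C E₀' C' z₀ z₀', StL e y₀ E₀ C z₀ ∧ StL d y₀ E₀' C' z₀'
    · obtain ⟨y₀, hy₀, E₀, C, E₀', C', z₀, z₀', hE, hA⟩ := hex
      have hle := he1.le
      have hge := he1.ge
      have hgd := hd1.ge
      obtain ⟨⟨hk1, hk2, -, -⟩, -⟩ := hK2 F V e d x y₀ z₀ z₀' E₀ C E₀' C' (by omega) hE hA
      have hm := hM F V e d (by omega) (by omega) (by omega) E₀ E₀' (C ⊓ C') hE.dim hA.dim hk1 hk2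
        (fun E E' C => ¬ GPL x E E' C)
      have hg := hG F V e d ht4 (by omega) (by omega) (by omega) (by omega) E₀ E₀' (C ⊓ C') hE.dim hA.dim hk1 hk2 x hx hxs
      set X : ℝ := (cnt G (fun y => ∃ E C E' C' z z', StL e y E C z ∧ StL d y E' C' z' ∧
        ¬ GPL x E E' (C ⊓ C')) : ℝ) with hX
      set Y : ℝ := (cnt G (fun g => ¬ GPL x (E₀.map (g : V →ₗ[F] V)) (E₀'.map (g : V →ₗ[F] V))
        ((C ⊓ C').map (g : V →ₗ[F] V))) : ℝ) with hY
      have hm' : X * (e * d) ≤ Y := by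
        rw [hX, hY]
        exact_mod_cast hm
      have h4 : Y ≤ |CG| * Nat.card G / t := by
        rw [le_div_iff₀ ht0]
        exact hg.trans (mul_le_mul_of_nonneg_right (le_abs_self _) g0)
      rw [mul_one_div, le_div_iff₀ (by positivity)]
      calc X * (e * d) ≤ |CG| * Nat.card G / t := hm'.trans h4
        _ = _ := by ring
    · rw [cnt_false G (P := fun y => ∃ E C E' C' z z', StL e y E C z ∧ StL d y E' C' z' ∧
        ¬ GPL x E E' (C ⊓ C')) fun y hy h => hex ⟨y, hy, by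
          obtain ⟨E, C, E', C', z, z', h1, h2, -⟩ := h
          exact ⟨E, C, E', C', z, z', h1, h2⟩⟩]
      push_cast
      positivity
  have hun : cnt G (fun y => closure {x, y} ≠ G) ≤
      cnt G (fun y => ¬ ∃ e ∈ I, ∃ E C z, StL e y E C z ∧ Pp F e (orderOf z)) +
      (cnt G (fun y => ¬ ∃ e ∈ J, ∃ E C z, StL e y E C z ∧ Pp F e (orderOf z)) +
      (cnt G (fun y => ¬ IrrG (closure {x, y})) +
      ∑ e ∈ J, ∑ d ∈ I, cnt G (fun y => ∃ E C E' C' z z', StL e y E C z ∧ StL d y E' C' z' ∧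
        ¬ GPL x E E' (C ⊓ C')))) := by
    refine (cnt_mono G (P' := fun y => (¬ ∃ e ∈ I, ∃ E C z, StL e y E C z ∧ Pp F e (orderOf z)) ∨
      ((¬ ∃ e ∈ J, ∃ E C z, StL e y E C z ∧ Pp F e (orderOf z)) ∨
      ((¬ IrrG (closure {x, y})) ∨ 
      ∃ e ∈ J, ∃ d ∈ I, ∃ E C E' C' z z', StL e y E C z ∧ StL d y E' C' z' ∧ ¬ GPL x E E' (C ⊓ C')))) ?_).trans ?_
    · intro y hy hne
      by_contra hcon
      have hc1 := not_or.1 hcon
      have hc2 := not_or.1 hc1.2
      have hc3 := not_or.1 hc2.2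
      obtain ⟨d, hd, E', C', z', hE', -⟩ := not_not.1 hc1.1
      obtain ⟨e, he, E, C, z, hE, hPp⟩ := not_not.1 hc2.1
      have hirr := not_not.1 hc3.1
      have hgp : GPL x E E' (C ⊓ C') := by
        by_contra hg
        exact hc3.2 ⟨e, he, d, hd, E, C, E', C', z, z', hE, hE', hg⟩
      have he1 := numJ e he
      have hd1 := numI d hd
      have hed := (hlt e he d hd).1
      exact hne (hD F V e d x y z z' E C E' C' hx hy (odJ e he) (evI d hd) (by have := hd1.ge; omega) (by omega)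
        (cop e he d hd) (by have := he1.ge; omega) hE hPp hE' hgp hirr)
    · refine (cnt_or G _ _).trans (Nat.add_le_add_left ?_ _)
      refine (cnt_or G _ _).trans (Nat.add_le_add_left ?_ _)
      refine (cnt_or G _ _).trans (Nat.add_le_add_left ?_ _)
      refine (cnt_exists G J _).trans (Finset.sum_le_sum fun e _ => ?_)
      exact cnt_exists G I _
  have hun' : (cnt G (fun y => closure {x, y} ≠ G) : ℝ) ≤
      cnt G (fun y => ¬ ∃ e ∈ I, ∃ E C z, StL e y E C z ∧ Pp F e (orderOf z)) +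
      (cnt G (fun y => ¬ ∃ e ∈ J, ∃ E C z, StL e y E C z ∧ Pp F e (orderOf z)) +
      (cnt G (fun y => ¬ IrrG (closure {x, y})) +
      ∑ e ∈ J, ∑ d ∈ I, (cnt G (fun y => ∃ E C E' C' z z', StL e y E C z ∧ StL d y E' C' z' ∧
        ¬ GPL x E E' (C ⊓ C')) : ℝ))) := by
    exact_mod_cast hun
  have b6 : ∑ e ∈ J, ∑ d ∈ I, (cnt G (fun y => ∃ E C E' C' z z', StL e y E C z ∧ StL d y E' C' z' ∧
      ¬ GPL x E E' (C ⊓ C')) : ℝ) ≤ |CG| / t * Nat.card G * (K + 1) ^ 2 := by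
    calc _ ≤ ∑ e ∈ J, ∑ d ∈ I, |CG| / t * Nat.card G * (1 / ((e : ℝ) * d)) :=
          Finset.sum_le_sum fun e he => Finset.sum_le_sum fun d hd => b5 e he d hd
      _ = |CG| / t * Nat.card G * ∑ e ∈ J, ∑ d ∈ I, 1 / ((e : ℝ) * d) := by
          rw [Finset.mul_sum]
          exact Finset.sum_congr rfl fun e _ => by rw [Finset.mul_sum]
      _ ≤ _ := mul_le_mul_of_nonneg_left (sum_sum I J K hK hI2 hJ2) (by positivity)
  have hfinal : |CR| / t * Nat.card G + |CG| / t * Nat.card G * (K + 1) ^ 2 ≤ ε / 5 * (Nat.card G : ℝ) := by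
    have h7 : |CR| / t * Nat.card G + |CG| / t * Nat.card G * (K + 1) ^ 2 = (B - 1) / t * Nat.card G := by
      rw [hB]
      field_simp
      ring
    rw [h7]
    refine mul_le_mul_of_nonneg_right (le_trans ?_ hBt) g0
    exact div_le_div_of_nonneg_right (by linarith) ht0.le
  have : ε / 5 * (Nat.card G : ℝ) ≤ ε * Nat.card G := mul_le_mul_of_nonneg_right (by linarith) g0
  nlinarith [hun', b1, b2, b3, b6, hfinal]

end Cfsg.Agent.H141.Ux
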